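-- Shared lemmas for the S0984 packages [E] and [Ga] (helper1).
import Mathlib
import Cfsg.Agent.Lib.Helper6.A7.Defs
import Cfsg.Agent.Lib.Helper53.Basic
import Cfsg.Agent.Lib.Helper17.Simple

set_option autoImplicit false

namespace Cfsg.Agent.Lib.Helper1.A7

variable {G : Type*} [Group G]

/-- The only involution of a cyclic group of order four is the square of a generator. -/
theorem eq_sq_of_mem_zpowers {v x : G} (hv : orderOf v = 4) (hx : x ∈ Subgroup.zpowers v)
    (hx2 : orderOf x = 2) : x = v ^ 2 := by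
  obtain ⟨k, hkx⟩ := hx
  have hkx' : v ^ k = x := hkx
  subst hkx'
  have hv4 : v ^ 4 = 1 := by rw [← hv]; exact pow_orderOf_eq_one v
  have hv2 : v ^ 2 ≠ 1 := by
    intro h
    have := orderOf_dvd_of_pow_eq_one h
    rw [hv] at this
    omega
  have hk : v ^ k = v ^ (k % 4) := by
    have := (zpow_mod_orderOf v k).symm
    rw [hv] at this
    exact_mod_cast this
  have hsq : (v ^ k) ^ 2 = 1 := by rw [← hx2]; exact pow_orderOf_eq_one _
  have h0 : 0 ≤ k % 4 := Int.emod_nonneg k (by norm_num)
  have h4 : k % 4 < 4 := Int.emod_lt_of_pos k (by norm_num)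
  rw [hk] at hsq ⊢
  obtain ⟨n, hn⟩ := Int.eq_ofNat_of_zero_le h0
  rw [hn] at hsq h4 ⊢
  rw [zpow_natCast] at hsq ⊢
  have hn4 : n < 4 := by exact_mod_cast h4
  interval_cases n
  · exfalso
    rw [hk, hn] at hx2
    simp at hx2
  · exfalso
    apply hv2
    simpa using hsq
  · rfl
  · exfalso
    apply hv2
    have : (v ^ 3) ^ 2 = v ^ 4 * v ^ 2 := by group
    rw [this, hv4, one_mul] at hsq
    exact hsq

/-- The square of an element of order four has order two. -/
theorem orderOf_sq_of_orderOf_four {v : G} (hv : orderOf v = 4) : orderOf (v ^ 2) = 2 := by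
  rw [orderOf_pow' v (by norm_num : (2 : ℕ) ≠ 0), hv]
  rfl

/-- Conjugate elements have centralizers of the same order. -/
theorem card_centralizer_conj (g r : G) :
    Nat.card (Subgroup.centralizer ({g * r * g⁻¹} : Set G)) =
      Nat.card (Subgroup.centralizer ({r} : Set G)) := by
  refine Nat.card_congr
    { toFun := fun x => ⟨g⁻¹ * x.1 * g, ?_⟩
      invFun := fun y => ⟨g * y.1 * g⁻¹, ?_⟩
      left_inv := fun x => by simp [mul_assoc]
      right_inv := fun y => by simp [mul_assoc] }
  · have hx := x.2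
    rw [Subgroup.mem_centralizer_singleton_iff] at hx ⊢
    have : g⁻¹ * x.1 * g * r = g⁻¹ * (x.1 * (g * r * g⁻¹)) * g := by group
    rw [this, hx]
    group
  · have hy := y.2
    rw [Subgroup.mem_centralizer_singleton_iff] at hy ⊢
    have : g * y.1 * g⁻¹ * (g * r * g⁻¹) = g * (y.1 * r) * g⁻¹ := by group
    rw [this, hy]
    group

/-- The order of a Sylow `2`-subgroup of a group of order `2520`. -/
theorem card_sylow_two [Finite G] (hG : Nat.card G = 2520) (S : Sylow 2 G) :
    Nat.card (S : Subgroup G) = 8 := by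
  have : Fact (Nat.Prime 2) := ⟨Nat.prime_two⟩
  have h := Cfsg.Agent.Lib.Helper17.card_sylow_eq_of_card_eq (G := G) 2 3 315
    (by rw [hG]; norm_num) (by norm_num) S
  simpa using h

/-- A cyclic subgroup of order four has index two in a Sylow `2`-subgroup of order eight. -/
theorem relIndex_zpowers [Finite G] (hG : Nat.card G = 2520) (S : Sylow 2 G) {u : G}
    (hu : u ∈ (S : Subgroup G)) (hu4 : orderOf u = 4) :
    (Subgroup.zpowers u).relIndex (S : Subgroup G) = 2 := by
  have hle : Subgroup.zpowers u ≤ (S : Subgroup G) := by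
    rw [Subgroup.zpowers_le]; exact hu
  have h1 := Cfsg.Agent.Lib.Helper53.card_mul_relIndex_eq hle
  rw [card_sylow_two hG S, Nat.card_zpowers, hu4] at h1
  omega

/-- Membership of products in a subgroup of index two of `S`. -/
theorem mul_mem_zpowers_iff [Finite G] (hG : Nat.card G = 2520) (S : Sylow 2 G) {u : G}
    (hu : u ∈ (S : Subgroup G)) (hu4 : orderOf u = 4) {a b : G} (ha : a ∈ (S : Subgroup G))
    (hb : b ∈ (S : Subgroup G)) :
    a * b ∈ Subgroup.zpowers u ↔ (a ∈ Subgroup.zpowers u ↔ b ∈ Subgroup.zpowers u) := by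
  have hidx : ((Subgroup.zpowers u).subgroupOf (S : Subgroup G)).index = 2 :=
    relIndex_zpowers hG S hu hu4
  have := Subgroup.mul_mem_iff_of_index_two hidx (a := ⟨a, ha⟩) (b := ⟨b, hb⟩)
  simpa [Subgroup.mem_subgroupOf] using this

/-- In a simple group of order `2520`, an involution of a Sylow `2`-subgroup `S` outside a
cyclic subgroup `⟨u⟩` of order four of `S` is conjugate to `u ^ 2` (Thompson transfer). -/
theorem exists_conj_eq_sq [Finite G] [IsSimpleGroup G] (hG : Nat.card G = 2520) (S : Sylow 2 G)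
    {u : G} (hu : u ∈ (S : Subgroup G)) (hu4 : orderOf u = 4) {r : G} (hr : orderOf r = 2) :
    ∃ g : G, g * r * g⁻¹ = u ^ 2 := by
  by_contra hcon
  have hcon : ∀ g : G, g * r * g⁻¹ ≠ u ^ 2 := fun g hg => hcon ⟨g, hg⟩
  have hle : Subgroup.zpowers u ≤ (S : Subgroup G) := by
    rw [Subgroup.zpowers_le]; exact hu
  obtain ⟨M, hMn, hMi, -⟩ := Cfsg.Agent.Lib.Helper53.thompson_transfer S (Subgroup.zpowers u) hle
    (relIndex_zpowers hG S hu hu4) r hr (by
      intro g hg
      apply hcon g
      apply eq_sq_of_mem_zpowers hu4 hg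
      rw [Cfsg.Agent.Lib.Helper53.orderOf_conj_eq, hr])
  rcases hMn.eq_bot_or_eq_top with h | h
  · rw [h, Subgroup.index_bot, hG] at hMi
    omega
  · rw [h, Subgroup.index_top] at hMi
    omega

end Cfsg.Agent.Lib.Helper1.A7
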