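-- S0984 package [Ga] (helper1): in a simple group of order 2520, an element of order four of a
-- Sylow 2-subgroup S commutes with no element of S outside its cyclic group.
import Mathlib
import Cfsg.Agent.Lib.Helper1.A7.Basic

set_option autoImplicit false

namespace Cfsg.Agent.Lib.Helper1.A7

universe u

theorem lemS2NonAbelian : Cfsg.Agent.Lib.Helper6.A7.LemS2NonAbelian.{u} := by
  intro G _ _ _ hG S u hu hu4 s hs hsQ hcomm
  have : Fact (Nat.Prime 2) := ⟨Nat.prime_two⟩
  have hS8 := card_sylow_two hG S
  have hu4' : u ^ 4 = 1 := by rw [← hu4]; exact pow_orderOf_eq_one u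
  have hGnp : ¬ (Nat.card G).Prime := by rw [hG]; norm_num
  -- every element of `S` is a power of `u` or `s` times a power of `u`
  have hdec : ∀ t ∈ (S : Subgroup G), t ∈ Subgroup.zpowers u ∨ s⁻¹ * t ∈ Subgroup.zpowers u := by
    intro t ht
    by_cases htQ : t ∈ Subgroup.zpowers u
    · exact Or.inl htQ
    · right
      rw [mul_mem_zpowers_iff hG S hu hu4 (inv_mem hs) ht]
      constructor
      · intro h
        exact absurd ((Subgroup.inv_mem_iff _).mp h) hsQ
      · intro h
        exact absurd h htQ
  -- powers of `u` commute with `u` and `s`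
  have hQu : ∀ q ∈ Subgroup.zpowers u, q * u = u * q := by
    intro q hq
    obtain ⟨k, rfl⟩ := hq
    exact ((Commute.refl u).zpow_left k).eq
  have hQs : ∀ q ∈ Subgroup.zpowers u, q * s = s * q := by
    intro q hq
    obtain ⟨k, rfl⟩ := hq
    have hc : Commute u s := hcomm.symm
    exact (hc.zpow_left k).eq
  -- so every element of `S` commutes with `u` and `s`
  have hSu : ∀ t ∈ (S : Subgroup G), t * u = u * t := by
    intro t ht
    rcases hdec t ht with h | h
    · exact hQu t h
    · have h1 := hQu _ h
      have ht' : t = s * (s⁻¹ * t) := by group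
      rw [ht', mul_assoc, h1, ← mul_assoc, hcomm, mul_assoc]
  have hSs : ∀ t ∈ (S : Subgroup G), t * s = s * t := by
    intro t ht
    rcases hdec t ht with h | h
    · exact hQs t h
    · have h1 := hQs _ h
      have ht' : t = s * (s⁻¹ * t) := by group
      rw [ht', mul_assoc, h1, ← mul_assoc]
  -- `S` is abelian
  have hSab : ∀ a ∈ (S : Subgroup G), ∀ t ∈ (S : Subgroup G), a * t = t * a := by
    intro a ha t ht
    have hQa : ∀ q ∈ Subgroup.zpowers u, a * q = q * a := by
      intro q hq
      obtain ⟨k, rfl⟩ := hq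
      have hc : Commute a u := hSu a ha
      exact (hc.zpow_right k).eq
    rcases hdec t ht with h | h
    · exact hQa t h
    · have h1 := hQa _ h
      have ht' : t = s * (s⁻¹ * t) := by group
      generalize s⁻¹ * t = q at h1 ht'
      subst ht'
      rw [← mul_assoc, hSs a ha, mul_assoc, h1, mul_assoc]
  have hScent : (S : Subgroup G) ≤ Subgroup.centralizer ((S : Subgroup G) : Set G) := by
    intro a ha
    rw [Subgroup.mem_centralizer_iff]
    intro t ht
    exact hSab t ht a ha
  -- squares of elements of `S` lie in `⟨u⟩`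
  have hsq : ∀ t ∈ (S : Subgroup G), t * t ∈ Subgroup.zpowers u := fun t ht =>
    (mul_mem_zpowers_iff hG S hu hu4 ht ht).mpr Iff.rfl
  -- an involution outside `⟨u⟩` gives a contradiction
  have hinv : ∀ r ∈ (S : Subgroup G), orderOf r = 2 → r ∈ Subgroup.zpowers u := by
    intro r hr hr2
    obtain ⟨g, hg⟩ := exists_conj_eq_sq hG S hu hu4 hr2
    have hu2S : u ^ 2 ∈ (S : Subgroup G) := pow_mem hu 2
    have hr' : g⁻¹ * u ^ 2 * g = r := by rw [← hg]; group
    obtain ⟨n, hn, hn'⟩ := S.conj_eq_normalizer_conj_of_mem_centralizer (u ^ 2) g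
      (hScent hu2S) (by rw [hr']; exact hScent hr)
    rw [hr'] at hn'
    have hnu : n⁻¹ * u * n ∈ (S : Subgroup G) := by
      have h1 := (Subgroup.mem_normalizer_iff.mp (inv_mem hn) u).mp hu
      simpa using h1
    have h2 := hsq _ hnu
    have h3 : n⁻¹ * u * n * (n⁻¹ * u * n) = r := by
      rw [hn']; simp [pow_two, mul_assoc]
    rwa [h3] at h2
  -- the square of `s`
  have hs2 := hsq s hs
  obtain ⟨k, hk⟩ := hs2
  have hk' : u ^ k = s * s := hk
  have hkmod : u ^ k = u ^ (k % 4) := by
    have := (zpow_mod_orderOf u k).symm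
    rw [hu4] at this
    exact_mod_cast this
  have h0 : 0 ≤ k % 4 := Int.emod_nonneg k (by norm_num)
  have h4 : k % 4 < 4 := Int.emod_lt_of_pos k (by norm_num)
  obtain ⟨n, hn⟩ := Int.eq_ofNat_of_zero_le h0
  rw [hkmod, hn, zpow_natCast] at hk'
  have hn4 : n < 4 := by
    have : (n : ℤ) < 4 := by rw [← hn]; exact h4
    exact_mod_cast this
  have hs1 : s ≠ 1 := fun h => hsQ (h ▸ one_mem _)
  have hu2 : u ^ 2 ≠ 1 := by
    intro h
    have := orderOf_dvd_of_pow_eq_one h
    rw [hu4] at this
    omega
  -- the cyclic case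
  have hcyc : orderOf s = 8 → False := by
    intro h8
    have hc : IsCyclic (S : Subgroup G) := by
      apply isCyclic_of_orderOf_eq_card (⟨s, hs⟩ : (S : Subgroup G))
      rw [Subgroup.orderOf_mk, h8, hS8]
    have hmin : (Nat.card G).minFac = 2 := by
      rw [Nat.minFac_eq_two_iff, hG]; norm_num
    have := IsCyclic.normalizer_le_centralizer hmin (P := S) hc
    exact Cfsg.Agent.Lib.Helper17.not_normalizer_le_centralizer hGnp 2 (by rw [hG]; norm_num) S
      this
  have hord8 : s ^ 4 ≠ 1 → False := by
    intro h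
    apply hcyc
    have hd : orderOf s ∣ 2 ^ 3 := by
      have h1 : orderOf (⟨s, hs⟩ : (S : Subgroup G)) ∣ Nat.card (S : Subgroup G) :=
        orderOf_dvd_natCard _
      rw [hS8, Subgroup.orderOf_mk] at h1
      exact h1
    obtain ⟨i, hi, hsi⟩ := (Nat.dvd_prime_pow Nat.prime_two).mp hd
    have hi' : i = 0 ∨ i = 1 ∨ i = 2 ∨ i = 3 := by omega
    rcases hi' with rfl | rfl | rfl | rfl
    · exfalso; apply h
      have : s = 1 := by rw [← orderOf_eq_one_iff]; simpa using hsi
      rw [this, one_pow]
    · exfalso; apply h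
      have h2 : s ^ 2 = 1 := by
        have := pow_orderOf_eq_one s
        rwa [hsi] at this
      have : s ^ 4 = (s ^ 2) ^ 2 := by group
      rw [this, h2, one_pow]
    · exfalso; apply h
      have := pow_orderOf_eq_one s
      rwa [hsi] at this
    · simpa using hsi
  interval_cases n
  · -- s * s = 1
    have hs2 : orderOf s = 2 := by
      apply orderOf_eq_prime
      · rw [pow_two]; simpa using hk'.symm
      · exact hs1
    exact hsQ (hinv s hs hs2)
  · -- s * s = u: order eight
    apply hord8
    intro h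
    apply hu2
    have : s ^ 4 = (s * s) ^ 2 := by rw [← pow_two, ← pow_mul]
    rw [this, ← hk', pow_one] at h
    exact h
  · -- s * s = u ^ 2: `s * u` is an involution
    have hsu : (s * u) ^ 2 = 1 := by
      have : (s * u) ^ 2 = s * s * (u * u) := by
        rw [pow_two]
        calc s * u * (s * u) = s * (u * s) * u := by group
          _ = s * (s * u) * u := by rw [← hcomm]
          _ = s * s * (u * u) := by group
      rw [this, ← hk']
      have : u ^ 2 * (u * u) = u ^ 4 := by group
      rw [this, hu4']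
    have hsu1 : s * u ≠ 1 := by
      intro h
      apply hsQ
      have : s = u⁻¹ := eq_inv_of_mul_eq_one_left h
      rw [this]
      exact inv_mem (Subgroup.mem_zpowers u)
    have hsu2 : orderOf (s * u) = 2 := orderOf_eq_prime hsu hsu1
    have := hinv (s * u) (mul_mem hs hu) hsu2
    apply hsQ
    have h1 := mul_mem this (inv_mem (Subgroup.mem_zpowers u))
    simpa using h1
  · -- s * s = u ^ 3: order eight
    apply hord8
    intro h
    apply hu2
    have h1 : s ^ 4 = (s * s) ^ 2 := by rw [← pow_two, ← pow_mul]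
    rw [h1, ← hk'] at h
    have h2 : (u ^ 3) ^ 2 = u ^ 4 * u ^ 2 := by group
    rw [h2, hu4', one_mul] at h
    exact h

end Cfsg.Agent.Lib.Helper1.A7
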