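-- S0984 package [E] (helper1): every involution of a simple group of order 2520 centralizes a
-- Sylow 2-subgroup.
import Mathlib
import Cfsg.Agent.Lib.Helper1.A7.Basic

set_option autoImplicit false

namespace Cfsg.Agent.Lib.Helper1.A7

universe u

theorem lemTwoCentral : Cfsg.Agent.Lib.Helper6.A7.LemTwoCentral.{u} := by
  intro G _ _ _ hG r hr
  have : Fact (Nat.Prime 2) := ⟨Nat.prime_two⟩
  have hrp : IsPGroup 2 (Subgroup.zpowers r) := by
    apply IsPGroup.of_card (n := 1)
    rw [Nat.card_zpowers, hr]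
    rfl
  obtain ⟨S, hS⟩ := hrp.exists_le_sylow
  have hrS : r ∈ (S : Subgroup G) := hS (Subgroup.mem_zpowers r)
  have hS8 := card_sylow_two hG S
  have key : ∀ z : G, (∀ t ∈ (S : Subgroup G), t * z = z * t) →
      8 ∣ Nat.card (Subgroup.centralizer ({z} : Set G)) := by
    intro z hz
    have hle : (S : Subgroup G) ≤ Subgroup.centralizer ({z} : Set G) := by
      intro t ht
      rw [Subgroup.mem_centralizer_singleton_iff]
      exact hz t ht
    have := Subgroup.card_dvd_of_le hle
    rwa [hS8] at this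
  by_cases hab : ∀ t ∈ (S : Subgroup G), t * r = r * t
  · exact key r hab
  · have hab' : ∃ t ∈ (S : Subgroup G), t * r ≠ r * t := by
      by_contra h
      exact hab fun t ht => by_contra fun h' => h ⟨t, ht, h'⟩
    obtain ⟨t, ht, htr⟩ := hab'
    have hv : ∃ v ∈ (S : Subgroup G), orderOf v = 4 := by
      by_contra hno
      have hsq : ∀ x ∈ (S : Subgroup G), x * x = 1 := by
        intro x hx
        have hdvd : orderOf x ∣ 2 ^ 3 := by
          have h1 : orderOf (⟨x, hx⟩ : (S : Subgroup G)) ∣ Nat.card (S : Subgroup G) :=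
            orderOf_dvd_natCard _
          rw [hS8, Subgroup.orderOf_mk] at h1
          exact h1
        obtain ⟨i, hi, hxi⟩ := (Nat.dvd_prime_pow Nat.prime_two).mp hdvd
        have hi' : i = 0 ∨ i = 1 ∨ i = 2 ∨ i = 3 := by omega
        rcases hi' with rfl | rfl | rfl | rfl
        · have : x = 1 := by
            rw [← orderOf_eq_one_iff]; simpa using hxi
          rw [this, mul_one]
        · have : x ^ 2 = 1 := by
            have := pow_orderOf_eq_one x
            rwa [hxi] at this
          rwa [pow_two] at this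
        · exact absurd ⟨x, hx, by simpa using hxi⟩ hno
        · exfalso
          apply hno
          refine ⟨x ^ 2, pow_mem hx 2, ?_⟩
          rw [orderOf_pow' x (by norm_num : (2 : ℕ) ≠ 0), hxi]
          rfl
      apply htr
      have inv_self : ∀ x ∈ (S : Subgroup G), x⁻¹ = x := fun x hx =>
        inv_eq_of_mul_eq_one_left (hsq x hx)
      calc t * r = (t * r)⁻¹ := (inv_self _ (mul_mem ht hrS)).symm
        _ = r⁻¹ * t⁻¹ := mul_inv_rev t r
        _ = r * t := by rw [inv_self r hrS, inv_self t ht]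
    obtain ⟨v, hvS, hv4⟩ := hv
    have hz2 : orderOf (v ^ 2) = 2 := orderOf_sq_of_orderOf_four hv4
    have hzc : ∀ t ∈ (S : Subgroup G), t * v ^ 2 = v ^ 2 * t := by
      intro t ht
      have hmem : t * v ^ 2 * t⁻¹ ∈ Subgroup.zpowers v := by
        have h1 : t * v * t⁻¹ ∈ (S : Subgroup G) := mul_mem (mul_mem ht hvS) (inv_mem ht)
        have h2 := (mul_mem_zpowers_iff hG S hvS hv4 h1 h1).mpr Iff.rfl
        have h3 : t * v ^ 2 * t⁻¹ = t * v * t⁻¹ * (t * v * t⁻¹) := by
          simp [pow_two, mul_assoc]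
        rw [h3]
        exact h2
      have h4 := eq_sq_of_mem_zpowers hv4 hmem
        (by rw [Cfsg.Agent.Lib.Helper53.orderOf_conj_eq]; exact hz2)
      exact mul_inv_eq_iff_eq_mul.mp h4
    have h8 := key (v ^ 2) hzc
    obtain ⟨g, hg⟩ := exists_conj_eq_sq hG S hvS hv4 hr
    rw [← card_centralizer_conj g r, hg]
    exact h8

end Cfsg.Agent.Lib.Helper1.A7
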